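import Mathlib.RingTheory.Flat.Equalizer
import Mathlib.RingTheory.Flat.FaithfullyFlat.Algebra
import Mathlib.RingTheory.LocalRing.ResidueField.Basic
import Mathlib.RingTheory.LocalRing.Quotient
import Mathlib.RingTheory.Nakayama
import Mathlib.RingTheory.Noetherian.Basic
import Mathlib.RingTheory.Ideal.MinimalPrime.Basic
import Mathlib.RingTheory.TensorProduct.Quotient

/-!
# Local algebra for EGA IV 15.3.1

`A → B` a local homomorphism of local rings whose closed fibre is a field, `B → B'` a surjection with `B'`
flat over the reduced ring of `A`.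
-/

set_option autoImplicit false

universe u

namespace Groth.Agent.Ega4fib.H177.Alg

open TensorProduct IsLocalRing

/-- `b ↦ 1 ⊗ b : B → K ⊗_A B` has kernel `𝔪_A B` for a field extension `K` of the residue field. -/
theorem mem_map_of_one_tmul_eq_zero {A B K : Type u} [CommRing A] [CommRing B] [Field K]
    [IsLocalRing A] [Algebra A B] [Algebra A K] [Algebra (ResidueField A) K]
    [IsScalarTower A (ResidueField A) K] (b : B) (hb : (1 : K) ⊗ₜ[A] b = 0) :
    b ∈ (maximalIdeal A).map (algebraMap A B) := by
  -- `κ ⊗ B → K ⊗ B` is injective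
  have h1 : Function.Injective
      ((IsScalarTower.toAlgHom A (ResidueField A) K).toLinearMap.rTensor B) := by
    have h2 : Function.Injective (Algebra.TensorProduct.includeRight :
        (ResidueField A ⊗[A] B) →ₐ[ResidueField A] K ⊗[ResidueField A] (ResidueField A ⊗[A] B)) :=
      Algebra.TensorProduct.includeRight_injective (algebraMap (ResidueField A) K).injective
    intro x y hxy
    apply h2
    apply (TensorProduct.AlgebraTensorModule.cancelBaseChange A (ResidueField A) K K B).injective
    have key : ∀ z : ResidueField A ⊗[A] B,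
        TensorProduct.AlgebraTensorModule.cancelBaseChange A (ResidueField A) K K B
          ((1 : K) ⊗ₜ[ResidueField A] z) =
        (IsScalarTower.toAlgHom A (ResidueField A) K).toLinearMap.rTensor B z := by
      intro z
      induction z using TensorProduct.induction_on with
      | zero => simp
      | add a b ha hb => rw [TensorProduct.tmul_add, map_add, map_add, ha, hb]
      | tmul a b =>
        simp [Algebra.smul_def]
    change TensorProduct.AlgebraTensorModule.cancelBaseChange A (ResidueField A) K K B
          ((1 : K) ⊗ₜ[ResidueField A] x) = TensorProduct.AlgebraTensorModule.cancelBaseChange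
            A (ResidueField A) K K B ((1 : K) ⊗ₜ[ResidueField A] y)
    rw [key, key, hxy]
  have h3 : (1 : ResidueField A) ⊗ₜ[A] b = 0 := by
    apply h1
    rw [map_zero]
    simpa using hb
  have h4 : b ⊗ₜ[A] (1 : A ⧸ maximalIdeal A) = 0 := by
    have := congrArg (TensorProduct.comm A (ResidueField A) B) h3
    rw [TensorProduct.comm_tmul, map_zero] at this
    exact this
  rw [← Ideal.Quotient.eq_zero_iff_mem]
  apply (Algebra.TensorProduct.quotIdealMapEquivTensorQuot B (maximalIdeal A)).injective
  rw [map_zero]
  exact h4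

/-- If `K ⊗_A B` is reduced for a field extension `K` of the residue field of `A` and `𝔪_B` is minimal over
`𝔪_A B`, then `𝔪_B = 𝔪_A B`. -/
theorem maximalIdeal_eq_map {A B K : Type u} [CommRing A] [CommRing B] [Field K] [IsLocalRing A]
    [IsLocalRing B] [Algebra A B] [Algebra A K] [Algebra (ResidueField A) K]
    [IsScalarTower A (ResidueField A) K]
    (hred : IsReduced (K ⊗[A] B))
    (hmin : maximalIdeal B ∈ ((maximalIdeal A).map (algebraMap A B)).minimalPrimes) :
    maximalIdeal B = (maximalIdeal A).map (algebraMap A B) := by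
  set I := (maximalIdeal A).map (algebraMap A B) with hI
  have hrad : I.IsRadical := by
    intro b hb
    obtain ⟨n, hn⟩ := hb
    apply mem_map_of_one_tmul_eq_zero (K := K)
    have h1 : ((1 : K) ⊗ₜ[A] b) ^ n = 0 := by
      have h2 : ∀ c ∈ I, (1 : K) ⊗ₜ[A] c = 0 := by
        intro c hc
        have h3 : I ≤ RingHom.ker (Algebra.TensorProduct.includeRight : B →ₐ[A] K ⊗[A] B) := by
          rw [hI, Ideal.map_le_iff_le_comap]
          intro a ha
          rw [Ideal.mem_comap, RingHom.mem_ker, AlgHom.commutes,
            IsScalarTower.algebraMap_apply A K (K ⊗[A] B),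
            IsScalarTower.algebraMap_apply A (ResidueField A) K]
          have h4 : algebraMap A (ResidueField A) a = 0 := by
            rw [ResidueField.algebraMap_eq, residue_eq_zero_iff]
            exact ha
          rw [h4, map_zero, map_zero]
        exact h3 hc
      rw [Algebra.TensorProduct.tmul_pow, one_pow]
      exact h2 _ hn
    exact (IsNilpotent.eq_zero ⟨n, h1⟩)
  have h5 : I.minimalPrimes = {maximalIdeal B} := by
    ext P
    rw [Set.mem_singleton_iff]
    constructor
    · intro hP
      have h6 : P ≤ maximalIdeal B := le_maximalIdeal hP.1.1.ne_top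
      exact le_antisymm h6 (hmin.2 hP.1 h6)
    · rintro rfl
      exact hmin
  have h6 : I.radical = maximalIdeal B := by
    rw [← Ideal.sInf_minimalPrimes, h5, sInf_singleton]
  rw [← h6, hrad.radical]

/-- Reducedness of `K ⊗_A B` passes to a quotient `K ⊗_{A'} B'` when the closed fibre of `B` over `A` is
a field. -/
theorem isReduced_tensor_of_surjective {A A' B B' K : Type u} [CommRing A] [CommRing A'] [CommRing B]
    [CommRing B'] [Field K] [IsLocalRing A] [IsLocalRing B] [Nontrivial B']
    [Algebra A B] [Algebra A A'] [Algebra A B'] [Algebra A' B'] [Algebra B B'] [Algebra A K]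
    [Algebra A' K] [IsScalarTower A A' B'] [IsScalarTower A B B'] [IsScalarTower A A' K]
    (hK : ∀ a ∈ maximalIdeal A, algebraMap A K a = 0)
    (hA : Function.Surjective (algebraMap A A')) (hB : Function.Surjective (algebraMap B B'))
    (hm : maximalIdeal B = (maximalIdeal A).map (algebraMap A B))
    (hred : IsReduced (K ⊗[A] B)) : IsReduced (K ⊗[A'] B') := by
  -- `K ⊗_A B → K ⊗_A B' → K ⊗_{A'} B'`
  have hker : ∀ b : B, algebraMap B B' b = 0 → (1 : K) ⊗ₜ[A] b = 0 := by
    intro b hb
    have h0 : b ∈ maximalIdeal B := by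
      rw [IsLocalRing.mem_maximalIdeal, mem_nonunits_iff]
      intro hu
      have := hu.map (algebraMap B B')
      rw [hb] at this
      exact not_isUnit_zero this
    rw [hm] at h0
    have h3 : (maximalIdeal A).map (algebraMap A B) ≤
        RingHom.ker (Algebra.TensorProduct.includeRight : B →ₐ[A] K ⊗[A] B) := by
      rw [Ideal.map_le_iff_le_comap]
      intro a ha
      rw [Ideal.mem_comap, RingHom.mem_ker, AlgHom.commutes,
        IsScalarTower.algebraMap_apply A K (K ⊗[A] B), hK a ha, map_zero]
    exact h3 h0
  -- ring map `B' → K ⊗_A B`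
  let j : B' →+* K ⊗[A] B := (Ideal.Quotient.lift (RingHom.ker (algebraMap B B'))
    (Algebra.TensorProduct.includeRight : B →ₐ[A] K ⊗[A] B).toRingHom (by
      intro b hb; exact hker b hb)).comp
      (RingHom.quotientKerEquivOfSurjective hB).symm.toRingHom
  have hj : ∀ b : B, j (algebraMap B B' b) = (1 : K) ⊗ₜ[A] b := by
    intro b
    have h1 : (RingHom.quotientKerEquivOfSurjective hB).symm (algebraMap B B' b) =
        Ideal.Quotient.mk _ b := by
      rw [RingEquiv.symm_apply_eq]
      rfl
    exact congrArg (Ideal.Quotient.lift (RingHom.ker (algebraMap B B'))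
      (Algebra.TensorProduct.includeRight : B →ₐ[A] K ⊗[A] B).toRingHom (by
      intro b hb; exact hker b hb)) h1
  have : IsScalarTower A' K (K ⊗[A] B) := IsScalarTower.of_algebraMap_eq fun _ => rfl
  have : IsScalarTower A A' (K ⊗[A] B) := IsScalarTower.of_algebraMap_eq fun a => by
    rw [IsScalarTower.algebraMap_apply A K (K ⊗[A] B), IsScalarTower.algebraMap_apply A A' K]
    rfl
  have hjA : ∀ a : A', j (algebraMap A' B' a) = algebraMap A' (K ⊗[A] B) a := by
    intro a
    obtain ⟨a, rfl⟩ := hA a
    rw [← IsScalarTower.algebraMap_apply A A' B', IsScalarTower.algebraMap_apply A B B', hj,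
      ← IsScalarTower.algebraMap_apply A A' (K ⊗[A] B)]
    exact (Algebra.TensorProduct.includeRight : B →ₐ[A] K ⊗[A] B).commutes a
  let jA : B' →ₐ[A'] K ⊗[A] B := { j with commutes' := hjA }
  let φ : K ⊗[A'] B' →ₐ[A'] K ⊗[A] B :=
    Algebra.TensorProduct.lift (IsScalarTower.toAlgHom A' K (K ⊗[A] B)) jA
      (fun _ _ => Commute.all _ _)
  -- left inverse
  let ψ : K ⊗[A] B →ₗ[A] K ⊗[A'] B' := TensorProduct.lift
    (LinearMap.mk₂ A (fun k b => k ⊗ₜ[A'] (algebraMap B B' b))
      (fun a b c => TensorProduct.add_tmul _ _ _)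
      (fun a k b => by
        rw [← IsScalarTower.algebraMap_smul A' a k, ← TensorProduct.smul_tmul',
          IsScalarTower.algebraMap_smul])
      (fun k b c => by rw [map_add, TensorProduct.tmul_add])
      (fun a k b => by
        rw [Algebra.smul_def, map_mul, ← IsScalarTower.algebraMap_apply A B B',
          IsScalarTower.algebraMap_apply A A' B', ← Algebra.smul_def, TensorProduct.tmul_smul,
          IsScalarTower.algebraMap_smul]))
  have hψφ : ∀ x : K ⊗[A'] B', ψ (φ x) = x := by
    intro x
    induction x using TensorProduct.induction_on with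
    | zero => rw [map_zero, map_zero]
    | add x y hx hy => rw [map_add, map_add, hx, hy]
    | tmul k b' =>
      obtain ⟨b, rfl⟩ := hB b'
      have h1 : φ (k ⊗ₜ[A'] algebraMap B B' b) = k ⊗ₜ[A] b := by
        change algebraMap K (K ⊗[A] B) k * j (algebraMap B B' b) = _
        rw [hj, Algebra.TensorProduct.algebraMap_apply, Algebra.TensorProduct.tmul_mul_tmul,
          mul_one, one_mul]
        rfl
      rw [h1]
      rfl
  exact isReduced_of_injective φ.toRingHom (fun x y hxy => by
    rw [← hψφ x, ← hψφ y]
    exact congrArg ψ hxy)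

/-- `φ : B → B'` surjective over `A` with `B'` flat over `A` and `ker φ ⊆ 𝔪_A B` is injective (`B` Noetherian
local). -/
theorem injective_of_flat_of_ker_le {A B B' : Type u} [CommRing A] [CommRing B] [CommRing B']
    [IsLocalRing A] [IsLocalRing B] [IsNoetherianRing B] [Algebra A B] [Algebra A B']
    [IsLocalHom (algebraMap A B)]
    [Module.Flat A B'] (φ : B →ₐ[A] B') (hφ : Function.Surjective φ)
    (hker : RingHom.ker φ ≤ (maximalIdeal A).map (algebraMap A B)) : Function.Injective φ := by
  let J : Ideal B := RingHom.ker φ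
  have hJfg : J.FG := IsNoetherian.noetherian J
  let g : J →ₗ[A] B := (Submodule.subtype J).restrictScalars A
  have hg : Function.Injective g := Subtype.val_injective
  have hex : Function.Exact g φ.toLinearMap := by
    intro b
    constructor
    · intro hb
      exact ⟨⟨b, hb⟩, rfl⟩
    · rintro ⟨b, rfl⟩
      exact b.2
  have h1 := LinearMap.lTensor_injective_of_exact_of_flat φ.toLinearMap hφ g hg hex
    (A ⧸ maximalIdeal A)
  -- `J ≤ 𝔪 J`
  have h2 : J ≤ (maximalIdeal A).map (algebraMap A B) • J := by
    intro b hb
    have hbm := hker hb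
    have h3 : (1 : A ⧸ maximalIdeal A) ⊗ₜ[A] (⟨b, hb⟩ : J) = 0 := by
      apply h1
      rw [map_zero, LinearMap.lTensor_tmul]
      change (1 : A ⧸ maximalIdeal A) ⊗ₜ[A] b = 0
      have h4 : (maximalIdeal A).map (algebraMap A B) ≤
          RingHom.ker (Algebra.TensorProduct.includeRight : B →ₐ[A] (A ⧸ maximalIdeal A) ⊗[A] B) := by
        rw [Ideal.map_le_iff_le_comap]
        intro a ha
        rw [Ideal.mem_comap, RingHom.mem_ker, AlgHom.commutes,
          IsScalarTower.algebraMap_apply A (A ⧸ maximalIdeal A) _]
        have : algebraMap A (A ⧸ maximalIdeal A) a = 0 := Ideal.Quotient.eq_zero_iff_mem.2 ha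
        rw [this, map_zero]
      exact h4 hbm
    have h5 : (⟨b, hb⟩ : J) ∈ (maximalIdeal A) • (⊤ : Submodule A J) := by
      rw [← Submodule.Quotient.mk_eq_zero]
      have h6 := congrArg (TensorProduct.quotTensorEquivQuotSMul J (maximalIdeal A)) h3
      rw [map_zero] at h6
      have h7 : (TensorProduct.quotTensorEquivQuotSMul J (maximalIdeal A))
          ((1 : A ⧸ maximalIdeal A) ⊗ₜ[A] (⟨b, hb⟩ : J)) =
          Submodule.Quotient.mk ((1 : A) • (⟨b, hb⟩ : J)) := rfl
      rw [h7, one_smul] at h6
      exact h6
    -- transfer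
    have h8 : ∀ j ∈ (maximalIdeal A) • (⊤ : Submodule A J),
        (j : B) ∈ (maximalIdeal A).map (algebraMap A B) • J := by
      intro j hj
      induction hj using Submodule.smul_induction_on' with
      | smul r hr n hn =>
        have h10 := Submodule.smul_mem_smul (Ideal.mem_map_of_mem (algebraMap A B) hr) n.2
        have h11 : ((r • n : J) : B) = algebraMap A B r • (n : B) :=
          Algebra.smul_def (A := B) r (n : B)
        rw [h11]
        exact h10
      | add x hx y hy h h' => exact Submodule.add_mem _ h h'
    exact h8 _ h5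
  have h9 : J = ⊥ := by
    refine Submodule.eq_bot_of_le_smul_of_le_jacobson_bot _ J hJfg h2 ?_
    rw [IsLocalRing.jacobson_eq_maximalIdeal (⊥ : Ideal B) bot_ne_top]
    exact map_maximalIdeal_le (algebraMap A B)
  exact (RingHom.injective_iff_ker_eq_bot φ).2 h9

end Groth.Agent.Ega4fib.H177.Alg
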