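import Groth.Agent.Ega43.UnivOpenFlatGeom
import Groth.Agent.Ega43.UnivOpenAt
import Groth.Agent.Ega43.GeomBC
import Groth.Agent.Ega43.GeomRedMain
import Groth.Agent.Ega4fib.H177.Alg
import Mathlib.AlgebraicGeometry.Noetherian
import Mathlib.AlgebraicGeometry.Morphisms.ClosedImmersion

/-!
# EGA IV 15.3.1: the local ring at a generic point of a fibre

`f : X ⟶ Y` locally of finite type, `Y` reduced and locally Noetherian, `i : W ⟶ X` an integral closed
subscheme with `i ≫ f` universally open at `w`, `p = i w` maximal in its fibre and the fibre geometrically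
reduced at `p`.  Then `i` induces an isomorphism of local rings `𝒪_{X,p} ≅ 𝒪_{W,w}` and these are flat over
`Y`.
-/

set_option autoImplicit false

universe u

namespace Groth.Agent.Ega4fib.H177.Core

open CategoryTheory CategoryTheory.Limits AlgebraicGeometry TensorProduct IsLocalRing
open Groth.Agent.Ega43 Groth.Agent.Ega43.GeomAt

/-- `GeomAt` and the fibre over an arbitrary point. -/
theorem schFieldAt_fiber_iff {P : ∀ (R : Type u) [CommRing R], Prop} (hP : IsoClosed P)
    {X Y : Scheme.{u}} (f : X ⟶ Y) (y : Y) (z : f.fiber y) :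
    SchFieldAt P (k := Y.residueField y) (f.fiberToSpecResidueField y) z ↔
      GeomAt P f (f.fiberι y z) := by
  have h2 : IsPullback (f.fiberι y) (f.fiberToSpecResidueField y) f
        (Y.fromSpecResidueField y) := IsPullback.of_hasPullback _ _
  have hfz : f (f.fiberι y z) = y := by
    have : f.fiberι y z ∈ Set.range (f.fiberι y) := ⟨z, rfl⟩
    rw [Scheme.Hom.range_fiberι] at this
    exact this
  exact schFieldAt_iff_of_isPullback (k := Y.residueField y)
    hP h2 (f.fiberι y).isEmbedding.injective z (by
      intro K _ j t ht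
      obtain ⟨⟨y', φ⟩, rfl⟩ := (Scheme.SpecToEquivOfField K Y).symm.surjective j
      change (Spec.map φ ≫ Y.fromSpecResidueField y').base t = _ at ht
      rw [Scheme.Hom.comp_apply, Scheme.fromSpecResidueField_apply] at ht
      have h3 : y' = y := ht.trans hfz
      subst h3
      exact ⟨φ.hom, rfl⟩)

/-- Primes of `𝒪_{X,x}` containing `𝔪_y` are the points of the fibre specializing to `x`. -/
theorem maximalIdeal_mem_minimalPrimes {X Y : Scheme.{u}} (f : X ⟶ Y) (x : X)
    (hmax : ∀ t : X, t ⤳ x → f t = f x → t = x) :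
    maximalIdeal (X.presheaf.stalk x) ∈
      ((maximalIdeal (Y.presheaf.stalk (f x))).map (f.stalkMap x).hom).minimalPrimes := by
  refine ⟨⟨inferInstance, ?_⟩, ?_⟩
  · exact map_maximalIdeal_le (f.stalkMap x).hom
  · intro Q hQ _
    have hQp := hQ.1
    let z : Spec (X.presheaf.stalk x) := ⟨Q, hQ.1⟩
    have h1 : f (X.fromSpecStalk x z) = f x :=
      (UnivOpenFlatGeom.apply_fromSpecStalk_eq f x z).mpr hQ.2
    have h2 : X.fromSpecStalk x z ⤳ x := by
      have h2 : X.fromSpecStalk x z ∈ Set.range (X.fromSpecStalk x) := ⟨z, rfl⟩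
      rw [Scheme.range_fromSpecStalk] at h2
      exact h2
    have h3 := hmax _ h2 h1
    have h4 : z = closedPoint (X.presheaf.stalk x) := by
      apply (X.fromSpecStalk x).isEmbedding.injective
      rw [h3]
      exact Scheme.fromSpecStalk_closedPoint.symm
    have h5 := congrArg PrimeSpectrum.asIdeal h4
    exact h5.symm.le

/-- Abstract form of `flat_and_bijective`. -/
theorem flat_and_bijective_aux {X W Y : Scheme.{u}} (f : X ⟶ Y) (i : W ⟶ X)
    (A B B' : CommRingCat.{u}) [IsLocalRing A] [IsLocalRing B] [IsLocalRing B'] [Algebra A B]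
    [Algebra B B'] [Algebra A B'] [IsScalarTower A B B'] [IsNoetherianRing A] [_root_.IsReduced A]
    [IsNoetherianRing B]
    [IsLocalHom (algebraMap A B)] [Algebra.EssFiniteType A B]
    (a : Spec A ⟶ Y) [Mono a] (b' : Spec B' ⟶ W) [Flat b']
    (h : b' ≫ i ≫ f = Spec.map (CommRingCat.ofHom (algebraMap A B')) ≫ a)
    (hsurj : Function.Surjective (algebraMap B B'))
    (hred : _root_.IsReduced (AlgebraicClosure (ResidueField A) ⊗[A] B))
    (hmin : maximalIdeal B ∈ ((maximalIdeal A).map (algebraMap A B)).minimalPrimes)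
    (hopen : EGA43.IsUnivOpenAt (i ≫ f) (b' (closedPoint B'))) :
    Function.Bijective (algebraMap B B') ∧ Module.Flat A B := by
  have hlB : IsLocalHom (algebraMap B B') := IsLocalHom.of_surjective _ hsurj
  have hlA : IsLocalHom (algebraMap A B') := by
    rw [IsScalarTower.algebraMap_eq A B B']
    infer_instance
  have hm := Alg.maximalIdeal_eq_map (K := AlgebraicClosure (ResidueField A)) hred hmin
  have hK : ∀ x ∈ maximalIdeal A, algebraMap A (AlgebraicClosure (ResidueField A)) x = 0 := by
    intro x hx
    rw [IsScalarTower.algebraMap_apply A (ResidueField A)]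
    have h4 : algebraMap A (ResidueField A) x = 0 := by
      rw [ResidueField.algebraMap_eq, residue_eq_zero_iff]
      exact hx
    rw [h4, map_zero]
  have hred' : _root_.IsReduced (AlgebraicClosure (ResidueField A) ⊗[A] B') :=
    Alg.isReduced_tensor_of_surjective (A' := A) hK Function.surjective_id hsurj hm hred
  have hm' : maximalIdeal B' = (maximalIdeal A).map (algebraMap A B') := by
    refine le_antisymm ?_ (map_maximalIdeal_le _)
    intro x hx
    obtain ⟨y, rfl⟩ := hsurj x
    have hy : y ∈ maximalIdeal B := by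
      rw [mem_maximalIdeal, mem_nonunits_iff] at hx ⊢
      exact fun hu => hx (hu.map _)
    rw [hm] at hy
    rw [IsScalarTower.algebraMap_eq A B B', ← Ideal.map_map]
    exact Ideal.mem_map_of_mem _ hy
  have hess : Algebra.EssFiniteType A B' :=
    have : Algebra.EssFiniteType B B' :=
      have : Algebra.FiniteType B B' := Algebra.FiniteType.of_surjective (Algebra.ofId B B') hsurj
      inferInstance
    Algebra.EssFiniteType.comp A B B'
  have hflat : Module.Flat A B' :=
    UnivOpenFlatGeom.flat_aux (i ≫ f) A B' a b' h hred' (by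
      intro z hz
      have hz1 : z.asIdeal = maximalIdeal B' := by
        refine le_antisymm (le_maximalIdeal z.2.ne_top) ?_
        rw [hm']
        exact hz.1.2
      have hz2 : z = closedPoint B' := PrimeSpectrum.ext hz1
      rw [hz2]
      exact hopen)
  have hinj : Function.Injective (algebraMap B B') := by
    refine Alg.injective_of_flat_of_ker_le (A := A) (IsScalarTower.toAlgHom A B B') hsurj ?_
    rw [← hm]
    intro x hx
    rw [mem_maximalIdeal, mem_nonunits_iff]
    intro hu
    have h1 : algebraMap B B' x = 0 := hx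
    have := hu.map (algebraMap B B')
    rw [h1] at this
    exact not_isUnit_zero this
  refine ⟨⟨hinj, hsurj⟩, ?_⟩
  exact Module.Flat.of_linearEquiv
    (LinearEquiv.ofBijective (IsScalarTower.toAlgHom A B B').toLinearMap ⟨hinj, hsurj⟩)

/-- Flatness of the closed subscheme `W` at `w` and bijectivity of the map of local rings. -/
theorem flat_and_bijective {X W Y : Scheme.{u}} [IsLocallyNoetherian Y] [IsReduced Y]
    (f : X ⟶ Y) [LocallyOfFiniteType f] (i : W ⟶ X) [IsClosedImmersion i] (w : W)
    (hopen : EGA43.IsUnivOpenAt (i ≫ f) w)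
    (hmax : ∀ t : X, t ⤳ i w → f t = f (i w) → t = i w)
    (hred : GeomAt (fun R _ => _root_.IsReduced R) f (i w)) :
    Function.Bijective (i.stalkMap w).hom ∧ (f.stalkMap (i w)).hom.Flat := by
  let _ : Algebra (Y.presheaf.stalk (f (i w))) (X.presheaf.stalk (i w)) :=
    (f.stalkMap (i w)).hom.toAlgebra
  let _ : Algebra (X.presheaf.stalk (i w)) (W.presheaf.stalk w) := (i.stalkMap w).hom.toAlgebra
  let _ : Algebra (Y.presheaf.stalk (f (i w))) (W.presheaf.stalk w) :=
    ((i.stalkMap w).hom.comp (f.stalkMap (i w)).hom).toAlgebra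
  have : IsScalarTower (Y.presheaf.stalk (f (i w))) (X.presheaf.stalk (i w))
    (W.presheaf.stalk w) := IsScalarTower.of_algebraMap_eq fun _ => rfl
  have halg : CommRingCat.ofHom (algebraMap (Y.presheaf.stalk (f (i w)))
    (X.presheaf.stalk (i w))) = f.stalkMap (i w) := rfl
  have halg' : CommRingCat.ofHom (algebraMap (Y.presheaf.stalk (f (i w)))
    (W.presheaf.stalk w)) = f.stalkMap (i w) ≫ i.stalkMap w := rfl
  have hess : Algebra.EssFiniteType (Y.presheaf.stalk (f (i w))) (X.presheaf.stalk (i w)) :=
    LocallyOfFiniteType.stalkMap f (i w)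
  have hloc : IsLocalHom (algebraMap (Y.presheaf.stalk (f (i w))) (X.presheaf.stalk (i w))) :=
    f.toLRSHom.prop (i w)
  have hflat : Flat (W.fromSpecStalk w) := StalkPull.flat_fromSpecStalk W w
  have hX : IsLocallyNoetherian X := LocallyOfFiniteType.isLocallyNoetherian f
  have hredK := GeomFibreStalk.isReduced_of_isGeomReducedAt f (i w)
    ((geomAt_fiber_iff GeomRedMain.isoClosed_isReduced f (i w)).mpr hred) halg
  have h : W.fromSpecStalk w ≫ i ≫ f = Spec.map (CommRingCat.ofHom
      (algebraMap (Y.presheaf.stalk (f (i w))) (W.presheaf.stalk w))) ≫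
        Y.fromSpecStalk (f (i w)) := by
    rw [halg', Spec.map_comp, Category.assoc, Scheme.SpecMap_stalkMap_fromSpecStalk,
      Scheme.SpecMap_stalkMap_fromSpecStalk_assoc]
  exact flat_and_bijective_aux f i (Y.presheaf.stalk (f (i w))) (X.presheaf.stalk (i w))
    (W.presheaf.stalk w) (Y.fromSpecStalk (f (i w))) (W.fromSpecStalk w) h
    (i.stalkMap_surjective w) hredK (maximalIdeal_mem_minimalPrimes f (i w) hmax) (by
      rw [Scheme.fromSpecStalk_closedPoint]
      exact hopen)

end Groth.Agent.Ega4fib.H177.Core
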