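import Groth.Agent.VarietyA.LocDim
import Groth.Agent.Flat2D.RelDimClosure2

/-!
# A closed irreducible subset of full fibre dimension contains the generic point of the fibre component

Used for EGA IV 15.3.1.
-/

set_option autoImplicit false

universe u

namespace Groth.Agent.Ega4fib.H177.Dim

open AlgebraicGeometry CategoryTheory TopologicalSpace Topology
open Groth.Agent.CycB.RelDim Groth.Agent.Flat2D.RelDimClosure

theorem localDim_congr {T : Type*} [TopologicalSpace T] {A B : Set T} (h : A = B) (x : T)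
    (hA : x ∈ A) (hB : x ∈ B) : FlatMor.localDim A ⟨x, hA⟩ = FlatMor.localDim B ⟨x, hB⟩ := by
  subst h
  rfl

/-- Let `p` be the generic point of the unique irreducible component of the fibre through `x`.  An irreducible
closed subset of `X` containing `x` whose intersection with the fibre has full local dimension at `x`
contains `p`. -/
theorem mem_of_localDim_eq {X Y : Scheme.{u}} (f : X ⟶ Y) [LocallyOfFiniteType f] (x p : X)
    (hp : p ⤳ x) (hfp : f p = f x) (hmax : ∀ t : X, t ⤳ x → f t = f x → p ⤳ t)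
    (C : Closeds X) (hC : IsIrreducible (C : Set X)) (hx : x ∈ C)
    (hdim : FlatMor.localDim ↥((C : Set X) ∩ f ⁻¹' {f x}) ⟨x, ⟨hx, rfl⟩⟩ =
      FlatMor.fibreDimAt f x) : p ∈ C := by
  by_contra hpC
  obtain ⟨ξ, hξ⟩ := QuasiSober.sober hC C.isClosed
  let W := (Scheme.IdealSheafData.vanishingIdeal C).subscheme
  let j : W ⟶ X := (Scheme.IdealSheafData.vanishingIdeal C).subschemeι
  have hj : Set.range j = (C : Set X) := by
    rw [Scheme.IdealSheafData.range_subschemeι]
    exact Scheme.IdealSheafData.coe_support_vanishingIdeal _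
  obtain ⟨w, hw⟩ : x ∈ Set.range j := by rw [hj]; exact hx
  obtain ⟨n, hn, hn'⟩ := Groth.Agent.VarietyA.LocDim.le_fibreDimAt f x p hp hfp
  have hlt : ∀ z : W, z ⤳ w → (j ≫ f) z = (j ≫ f) w → rtd (j ≫ f) z < rtd f p := by
    intro z hz hfz
    rw [rtd_comp, rtd_eq_zero_of_isPreimmersion j, add_zero]
    have h1 : j z ⤳ x := by rw [← hw]; exact hz.map j.continuous
    have h2 : f (j z) = f x := by
      rw [← hw]
      rw [Scheme.Hom.comp_apply, Scheme.Hom.comp_apply] at hfz
      exact hfz
    have h3 := hmax _ h1 h2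
    refine rtd_lt_of_specializes f h3 ?_ (hfp.trans h2.symm)
    rintro rfl
    apply hpC
    have : j z ∈ Set.range j := ⟨z, rfl⟩
    rw [hj] at this
    exact this
  have h0 := hlt w (specializes_refl w) rfl
  have hn0 : n ≠ 0 := by
    rintro rfl
    rw [hn] at h0
    exact absurd h0 (by simp)
  obtain ⟨m, rfl⟩ := Nat.exists_eq_succ_of_ne_zero hn0
  have h1 : FlatMor.fibreDimAt (j ≫ f) w ≤ m := by
    refine Groth.Agent.VarietyA.LocDim.fibreDimAt_le (j ≫ f) w m fun z hz hfz => ?_
    have h2 := hlt z hz hfz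
    rw [hn] at h2
    obtain ⟨k, hk, -⟩ := Groth.Agent.VarietyA.LocDim.le_fibreDimAt (j ≫ f) w z hz hfz
    rw [hk] at h2 ⊢
    norm_cast at h2 ⊢
    omega
  have h2 : FlatMor.localDim (Fib f ξ (f (j w))) ⟨j w, by
      change j w ∈ closure {ξ}
      rw [hξ.def, ← hj]
      exact ⟨w, rfl⟩, rfl⟩ = FlatMor.fibreDimAt f x := by
    rw [← hdim]
    subst hw
    refine localDim_congr ?_ _ _ _
    rw [Fib, hξ.def]
  have h3 := fibreDimAt_comp_eq_localDim j f ξ (hj.trans hξ.def.symm) w ⟨j w, by
      change j w ∈ closure {ξ}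
      rw [hξ.def, ← hj]
      exact ⟨w, rfl⟩, rfl⟩ rfl
  rw [h3, h2] at h1
  have h4 := hn'.trans h1
  norm_cast at h4
  omega

end Groth.Agent.Ega4fib.H177.Dim
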